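import Cfsg.Agent.H44.NormalDegrees
import Cfsg.Agent.H25.SylowNumbers
import Cfsg.Agent.H38.RealOdd.Tools

/-!
# Degrees over linear characters of normal subgroups
-/

set_option autoImplicit false
set_option linter.all false

namespace Cfsg.Agent.H17.Palfy

variable {H : Type*} [Group H] [Finite H]

/-- The stabiliser of a linear character of a normal subgroup. -/
noncomputable def linStabilizer (N : Subgroup H) [N.Normal] (f : N →* ℂˣ) : Subgroup H :=
  H44.inertia N (H38.RealOdd.linFun f)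

theorem mem_linStabilizer {N : Subgroup H} [hN : N.Normal] {f : N →* ℂˣ} {g : H} :
    g ∈ linStabilizer N f ↔ ∀ n : N, f ⟨g * n * g⁻¹, hN.conj_mem n n.2 g⟩ = f n := by
  rw [linStabilizer, H44.mem_inertia]
  exact ⟨fun h n => Units.ext (congrFun h n), fun h => funext fun n => congrArg Units.val (h n)⟩

/-- The index of the stabiliser of a linear character divides a degree. -/
theorem exists_index_linStabilizer_dvd (N : Subgroup H) [N.Normal] (f : N →* ℂˣ) :
    ∃ χ : Cfsg.IrrCharacter H, (linStabilizer N f).index ∣ Cfsg.charDegree (χ : H → ℂ) := by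
  haveI := Fintype.ofFinite H
  haveI := Fintype.ofFinite N
  obtain ⟨χ, hχ⟩ := H44.exists_irr_over N (H38.RealOdd.linIrr f)
  refine ⟨χ, ?_⟩
  have h := H44.degree_mul_index_inertia_dvd N χ (H38.RealOdd.linIrr f) hχ
  exact dvd_trans (dvd_mul_right (linStabilizer N f).index
    (Cfsg.charDegree ((H38.RealOdd.linIrr f : Cfsg.IrrCharacter N) : N → ℂ))) h

/-- A normal subgroup of index prime to `q` contains every Sylow `q`-subgroup. -/
theorem sylow_le_of_normal {q : ℕ} [Fact q.Prime] (L : Subgroup H) [hL : L.Normal]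
    (h : ¬ q ∣ L.index) (Q : Sylow q H) : (Q : Subgroup H) ≤ L := by
  obtain ⟨T, hT⟩ := H25.exists_sylow_le_of_not_dvd_index L h
  obtain ⟨g, rfl⟩ := MulAction.exists_smul_eq H T Q
  rw [Sylow.coe_subgroup_smul]
  rintro _ ⟨x, hx, rfl⟩
  exact hL.conj_mem x (hT hx) g

/-- A Sylow subgroup inside a normal subgroup: all conjugates are. -/
theorem sylow_le_normal_of_le {q : ℕ} [Fact q.Prime] (L : Subgroup H) [hL : L.Normal]
    (T : Sylow q H) (hT : (T : Subgroup H) ≤ L) (Q : Sylow q H) : (Q : Subgroup H) ≤ L := by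
  obtain ⟨g, rfl⟩ := MulAction.exists_smul_eq H T Q
  rw [Sylow.coe_subgroup_smul]
  rintro _ ⟨x, hx, rfl⟩
  exact hL.conj_mem x (hT hx) g

/-- A cyclic group has a faithful linear character. -/
theorem exists_faithful_linear (C : Type*) [Group C] [Finite C] [IsCyclic C] :
    ∃ f : C →* ℂˣ, Function.Injective f := by
  haveI : NeZero (Nat.card C) := ⟨Nat.card_pos.ne'⟩
  obtain ⟨g, hg⟩ := IsCyclic.exists_generator (α := C)
  obtain ⟨ζ, hζ⟩ : ∃ ζ : ℂˣ, IsPrimitiveRoot ζ (Nat.card C) := by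
    refine ⟨(Complex.isPrimitiveRoot_exp (Nat.card C) Nat.card_pos.ne').isUnit Nat.card_pos.ne' |>.unit, ?_⟩
    rw [← IsPrimitiveRoot.coe_units_iff]
    exact Complex.isPrimitiveRoot_exp (Nat.card C) Nat.card_pos.ne'
  have hord : orderOf g = Nat.card C := orderOf_eq_card_of_forall_mem_zpowers hg
  have hζo : orderOf ζ = Nat.card C := hζ.eq_orderOf.symm
  refine ⟨monoidHomOfForallMemZpowers hg (hord ▸ hζo ▸ dvd_rfl : orderOf ζ ∣ orderOf g), ?_⟩
  refine (injective_iff_map_eq_one _).mpr fun x hx => ?_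
  obtain ⟨k, rfl⟩ := Subgroup.mem_zpowers_iff.mp (hg x)
  rw [map_zpow, monoidHomOfForallMemZpowers_apply_gen] at hx
  rw [← orderOf_dvd_iff_zpow_eq_one, hord, ← hζo, orderOf_dvd_iff_zpow_eq_one]
  exact hx

/-- Two homomorphisms from commuting subgroups agreeing on the intersection glue. -/
theorem exists_hom_sup_commuting (A B : Subgroup H) {W : Type*} [CommGroup W]
    (hAB : ∀ a ∈ A, ∀ b ∈ B, a * b = b * a) (f : A →* W) (g : B →* W)
    (h : ∀ (a : A) (b : B), (a : H) = b → f a = g b) :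
    ∃ F : ↥(A ⊔ B) →* W, ∀ (x : ↥(A ⊔ B)) (a : A) (b : B), (x : H) = a * b → F x = f a * g b := by
  have hnorm : B ≤ Subgroup.normalizer (A : Set H) := by
    intro b hb
    refine Subgroup.mem_normalizer_iff.mpr fun a => ⟨fun ha => ?_, fun ha => ?_⟩
    · rwa [← hAB a ha b hb, mul_inv_cancel_right]
    · have e := hAB _ ha b hb
      rw [inv_mul_cancel_right] at e
      have : a = b * a * b⁻¹ := mul_left_cancel e
      rwa [← this] at ha
  have hdec : ∀ x : ↥(A ⊔ B), ∃ (a : A) (b : B), (x : H) = a * b := fun x => by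
    have hx : (x : H) ∈ ((A ⊔ B : Subgroup H) : Set H) := x.2
    rw [Subgroup.coe_mul_of_right_le_normalizer_left A B hnorm] at hx
    obtain ⟨a, ha, b, hb, e⟩ := hx
    exact ⟨⟨a, ha⟩, ⟨b, hb⟩, e.symm⟩
  have huniq : ∀ (a a' : A) (b b' : B), (a : H) * b = a' * b' → f a * g b = f a' * g b' := by
    intro a a' b b' e
    have e1 : ((a'⁻¹ * a : A) : H) = ((b' * b⁻¹ : B) : H) := by
      push_cast
      rw [eq_mul_inv_iff_mul_eq, mul_assoc, e, inv_mul_cancel_left]
    have := h _ _ e1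
    rw [map_mul, map_inv, map_mul, map_inv, inv_mul_eq_iff_eq_mul] at this
    rw [this, mul_assoc, inv_mul_cancel_right]
  choose α β hαβ using hdec
  refine ⟨MonoidHom.mk' (fun x => f (α x) * g (β x)) fun x y => ?_, fun x a b e => ?_⟩
  · show f (α (x * y)) * g (β (x * y)) = f (α x) * g (β x) * (f (α y) * g (β y))
    rw [huniq (α (x * y)) (α x * α y) (β (x * y)) (β x * β y), map_mul, map_mul, mul_mul_mul_comm]
    rw [← hαβ (x * y)]
    push_cast
    rw [hαβ x, hαβ y]
    have c : Commute ((α y : A) : H) ((β x : B) : H) := hAB _ (α y).2 _ (β x).2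
    rw [mul_assoc, mul_assoc, ← mul_assoc ((β x : B) : H), ← c.eq, mul_assoc]
  · exact huniq _ _ _ _ ((hαβ x).symm.trans e)

end Cfsg.Agent.H17.Palfy
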