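import Mathlib
import Cfsg.Agent.H21.Complement
import Cfsg.Agent.H21.UniqueSubgroup

/-!
# Solvable groups in which every vector is fixed by exactly one Sylow subgroup

Setting for Pálfy's theorem on three primes: `H` acts on the finite abelian group `V`, and for the
prime `q` every non-identity vector is fixed by exactly one Sylow `q`-subgroup. We show that for
odd `q` the abelian normal subgroups act semiregularly, hence are cyclic.
-/

set_option autoImplicit false
set_option linter.all false

namespace Cfsg.Agent.H17.Palfy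

variable {H V : Type*} [Group H] [CommGroup V] [MulDistribMulAction H V]

/-- Every non-identity vector is fixed by exactly one Sylow `q`-subgroup; these are abelian. -/
structure Loc (q : ℕ) (H V : Type*) [Group H] [CommGroup V] [MulDistribMulAction H V] : Prop where
  prime : q.Prime
  dvd : q ∣ Nat.card H
  comm : ∀ Q : Sylow q H, IsMulCommutative (Q : Subgroup H)
  fix : ∀ v : V, v ≠ 1 → ∃ Q : Sylow q H, (Q : Subgroup H) ≤ MulAction.stabilizer H v ∧
    ∀ Q' : Sylow q H, (Q' : Subgroup H) ≤ MulAction.stabilizer H v → Q' = Q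

/-- No proper non-trivial subgroup of `V` is invariant. -/
def Irr (H V : Type*) [Group H] [CommGroup V] [MulDistribMulAction H V] : Prop :=
  ∀ U : Subgroup V, (∀ h : H, ∀ u ∈ U, h • u ∈ U) → U = ⊥ ∨ U = ⊤

/-- The vectors fixed by a set of operators. -/
def fixSub (B : Subgroup H) : Subgroup V where
  carrier := {v | ∀ b ∈ B, b • v = v}
  one_mem' := fun b _ => smul_one b
  mul_mem' := fun {x y} hx hy b hb => by rw [smul_mul', hx b hb, hy b hb]
  inv_mem' := fun {x} hx b hb => by rw [smul_inv', hx b hb]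

theorem mem_fixSub {B : Subgroup H} {v : V} : v ∈ fixSub B ↔ ∀ b ∈ B, b • v = v := Iff.rfl

theorem smul_mem_fixSub {B : Subgroup H} {v : V} (hv : v ∈ fixSub B) (h : H) :
    h • v ∈ fixSub (V := V) (B.map (MulAut.conj h).toMonoidHom) := by
  rintro _ ⟨b, hb, rfl⟩
  show (h * b * h⁻¹) • (h • v) = h • v
  rw [smul_smul, inv_mul_cancel_right, mul_smul, hv b hb]

/-- A normalised subgroup of operators has an invariant fixed-point subgroup. -/
theorem fixSub_invariant {B : Subgroup H} [hB : B.Normal] (h : H) {v : V} (hv : v ∈ fixSub B) :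
    h • v ∈ fixSub (V := V) B := by
  intro b hb
  exact smul_mem_fixSub hv h b
    ⟨h⁻¹ * b * h, by simpa using hB.conj_mem b hb h⁻¹, by simp [mul_assoc]⟩

/-- In a faithful irreducible action, a normal subgroup with a common fixed vector is trivial. -/
theorem normal_eq_bot_of_fixed [FaithfulSMul H V] (hirr : Irr H V) (B : Subgroup H) [B.Normal]
    {v : V} (hv1 : v ≠ 1) (hv : v ∈ fixSub B) : B = ⊥ := by
  rcases hirr (fixSub B) (fun h u hu => fixSub_invariant h hu) with e | e
  · exact absurd (Subgroup.mem_bot.mp (e ▸ hv)) hv1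
  · refine (Subgroup.eq_bot_iff_forall _).mpr fun b hb => eq_of_smul_eq_smul (α := V) fun u => ?_
    rw [one_smul]
    exact (mem_fixSub.mp (e ▸ Subgroup.mem_top u)) b hb

namespace Loc

variable {q : ℕ} [Finite H] (hq : Loc q H V)
include hq

theorem not_normal [FaithfulSMul H V] (Q : Sylow q H) : ¬ (Q : Subgroup H).Normal := by
  intro hn
  haveI := Fact.mk hq.prime
  haveI := Sylow.unique_of_normal Q hn
  refine Q.ne_bot_of_dvd_card hq.dvd ((Subgroup.eq_bot_iff_forall _).mpr fun g hg =>
    eq_of_smul_eq_smul (α := V) fun v => ?_)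
  rw [one_smul]
  by_cases hv : v = 1
  · rw [hv, smul_one]
  obtain ⟨Q', hQ', -⟩ := hq.fix v hv
  exact hQ' ((Subsingleton.elim Q Q') ▸ hg)

/-- No Sylow subgroup fixes an invariant set of non-identity vectors. -/
theorem not_const [FaithfulSMul H V] (Ω : Set V) (hne : Ω.Nonempty) (h1 : (1 : V) ∉ Ω)
    (hinv : ∀ h : H, ∀ v ∈ Ω, h • v ∈ Ω) (Q : Sylow q H)
    (hQ : ∀ v ∈ Ω, (Q : Subgroup H) ≤ MulAction.stabilizer H v) : False := by
  haveI := Fact.mk hq.prime
  refine hq.not_normal Q (Subgroup.normalizer_eq_top_iff.mp (top_unique fun h _ => ?_))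
  obtain ⟨v, hv⟩ := hne
  obtain ⟨Q₀, -, huniq⟩ := hq.fix (h • v) (fun e => h1 (e ▸ hinv h v hv))
  have e1 : h • Q = Q₀ := by
    refine huniq _ fun x hx => ?_
    rw [Sylow.coe_subgroup_smul] at hx
    obtain ⟨y, hy, rfl⟩ := hx
    show (h * y * h⁻¹) • (h • v) = h • v
    rw [smul_smul, inv_mul_cancel_right, mul_smul, hQ v hv hy]
  exact Sylow.smul_eq_iff_mem_normalizer.mp (e1.trans (huniq Q (hQ _ (hinv h v hv))).symm)

/-- A subgroup normalised by nothing else: an element fixing `v` normalises the Sylow subgroup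
attached to `v`. -/
theorem smul_eq_of_fixed {v : V} (hv : v ≠ 1) {Q : Sylow q H}
    (hQ : (Q : Subgroup H) ≤ MulAction.stabilizer H v) {u : H} (hu : u • v = v) :
    u ∈ Subgroup.normalizer ((Q : Subgroup H) : Set H) := by
  haveI := Fact.mk hq.prime
  obtain ⟨Q₀, -, huniq⟩ := hq.fix v hv
  refine Sylow.smul_eq_iff_mem_normalizer.mp ((huniq (u • Q) fun x hx => ?_).trans (huniq Q hQ).symm)
  rw [Sylow.coe_subgroup_smul] at hx
  obtain ⟨y, hy, rfl⟩ := hx
  show (u * y * u⁻¹) • v = v
  have hu' : u⁻¹ • v = v := by rw [inv_smul_eq_iff, hu]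
  rw [mul_smul, hu', mul_smul, hQ hy, hu]

end Loc

open scoped Classical in
/-- Fixed-point subgroups of different maximal stabilisers are independent. -/
theorem independent (N : Subgroup H) (hab : ∀ a ∈ N, ∀ b ∈ N, a * b = b * a)
    (s : Finset (Subgroup H)) (hsN : ∀ B ∈ s, B ≤ N)
    (hmax : ∀ B ∈ s, ∀ C ∈ s, ∀ v ∈ fixSub (V := V) B, v ∈ fixSub (V := V) C → B = C ∨ v = 1) :
    ∀ f : Subgroup H → V, (∀ B ∈ s, f B ∈ fixSub (V := V) B) → ∏ B ∈ s, f B = 1 →
      ∀ B ∈ s, f B = 1 := by
  induction s using Finset.induction with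
  | empty => simp
  | @insert A s hA ih =>
    intro f hf hprod
    have hs : ∀ B ∈ s, f B = 1 := by
      intro B hB
      have hBA : B ≠ A := fun e => hA (e ▸ hB)
      have key : ∀ x ∈ A, x • f B = f B := by
        intro x hx
        have hxN := hsN A (Finset.mem_insert_self A s) hx
        refine mul_inv_eq_one.mp (ih (fun C hC => hsN C (Finset.mem_insert_of_mem hC))
          (fun C hC D hD => hmax C (Finset.mem_insert_of_mem hC) D (Finset.mem_insert_of_mem hD))
          (fun C => x • f C * (f C)⁻¹) (fun C hC => ?_) ?_ B hB)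
        · refine mul_mem (fun c hc => ?_) (inv_mem (hf C (Finset.mem_insert_of_mem hC)))
          have hcN := hsN C (Finset.mem_insert_of_mem hC) hc
          rw [smul_smul, hab c hcN x hxN, mul_smul, hf C (Finset.mem_insert_of_mem hC) c hc]
        · have h2 : x • ∏ C ∈ insert A s, f C = 1 := by rw [hprod, smul_one]
          rw [Finset.smul_prod', Finset.prod_insert hA, hf A (Finset.mem_insert_self A s) x hx]
            at h2
          rw [Finset.prod_insert hA] at hprod
          rw [Finset.prod_mul_distrib, Finset.prod_inv_distrib, mul_inv_eq_one]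
          exact mul_left_cancel (h2.trans hprod.symm)
      rcases hmax A (Finset.mem_insert_self A s) B (Finset.mem_insert_of_mem hB) (f B) key
        (hf B (Finset.mem_insert_of_mem hB)) with e | e
      · exact absurd e.symm hBA
      · exact e
    intro B hB
    rcases Finset.mem_insert.mp hB with rfl | hB'
    · rwa [Finset.prod_insert hA, Finset.prod_eq_one hs, mul_one] at hprod
    · exact hs B hB'

open scoped Classical in
/-- Abelian normal subgroups act semiregularly. -/
theorem semiregular [Finite H] [Finite V] [FaithfulSMul H V] {q : ℕ} (hq : Loc q H V)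
    (hodd : q ≠ 2) (hirr : Irr H V) (N : Subgroup H) [hN : N.Normal]
    (hab : ∀ a ∈ N, ∀ b ∈ N, a * b = b * a) :
    ∀ x ∈ N, ∀ v : V, v ≠ 1 → x • v = v → x = 1 := by
  by_contra hcon
  push Not at hcon
  obtain ⟨x₀, hx₀, v₁, hv₁, hfix₁, hx₀1⟩ := hcon
  set S : V → Subgroup H := fun v => N ⊓ MulAction.stabilizer H v with hS
  obtain ⟨v₀, hv₀, hmaxv⟩ := Set.exists_max_image {v : V | v ≠ 1} (fun v => Nat.card (S v))
    (Set.toFinite _) ⟨v₁, hv₁⟩
  set B₀ := S v₀ with hB₀
  have hB₀1 : B₀ ≠ ⊥ := by
    intro e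
    have h := hmaxv v₁ hv₁
    rw [e, Subgroup.card_bot] at h
    have h1 : x₀ ∈ S v₁ := Subgroup.mem_inf.mpr ⟨hx₀, hfix₁⟩
    have h2 := Subgroup.eq_bot_of_card_le (S v₁) h
    exact hx₀1 (Subgroup.mem_bot.mp (h2 ▸ h1))
  have hmem : v₀ ∈ fixSub (V := V) B₀ := fun b hb => (Subgroup.mem_inf.mp hb).2
  set cj : H → Subgroup H := fun h => B₀.map (MulAut.conj h).toMonoidHom with hcj
  have hcjN : ∀ h, cj h ≤ N := by
    rintro h _ ⟨b, hb, rfl⟩
    exact hN.conj_mem b (Subgroup.mem_inf.mp hb).1 h
  -- maximality: a vector fixed by a conjugate has exactly that stabiliser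
  have hcjS : ∀ h, ∀ v : V, v ≠ 1 → v ∈ fixSub (cj h) → S v = cj h := by
    intro h v hv hvB
    refine (Subgroup.eq_of_le_of_card_ge (fun b hb => Subgroup.mem_inf.mpr ⟨hcjN h hb, hvB b hb⟩) ?_).symm
    calc Nat.card (S v) ≤ Nat.card B₀ := hmaxv v hv
      _ = Nat.card (cj h) := (Subgroup.card_map_of_injective (MulAut.conj h).injective).symm
  -- a vector fixed by each conjugate
  have hvh : ∀ h, h • v₀ ∈ fixSub (V := V) (cj h) ∧ h • v₀ ≠ 1 := fun h =>
    ⟨smul_mem_fixSub hmem h, fun e => hv₀ (by simpa using congrArg (h⁻¹ • ·) e)⟩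
  -- two different conjugates
  obtain ⟨h₁, hne⟩ : ∃ h₁, cj h₁ ≠ B₀ := by
    by_contra hall
    push Not at hall
    haveI : B₀.Normal := ⟨fun b hb g => (hall g) ▸ ⟨b, hb, rfl⟩⟩
    exact hB₀1 (normal_eq_bot_of_fixed hirr B₀ hv₀ hmem)
  have hcj1 : cj 1 = B₀ := by ext b; simp [hcj]
  have hpair : ∀ a b : H, cj a ≠ cj b → ∀ w ∈ fixSub (V := V) (cj a), w ≠ 1 →
      ∀ x ∈ fixSub (V := V) (cj b), x ≠ 1 →
      ∀ Q : Sylow q H, (Q : Subgroup H) ≤ MulAction.stabilizer H (w * x) →
        (Q : Subgroup H) ≤ MulAction.stabilizer H w ∧ (Q : Subgroup H) ≤ MulAction.stabilizer H x := by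
    intro a b hab' w hw hw1 x hx hx1 Q hQ
    suffices h : ∀ g ∈ (Q : Subgroup H), g • w = w ∧ g • x = x from
      ⟨fun g hg => (h g hg).1, fun g hg => (h g hg).2⟩
    intro g hg
    have hgwx : g • w * g • x = w * x := by rw [← smul_mul']; exact hQ hg
    have hgw : g • w ∈ fixSub (V := V) (cj (g * a)) := by
      have e : cj (g * a) = (cj a).map (MulAut.conj g).toMonoidHom := by
        rw [hcj, Subgroup.map_map]; congr 1; ext y; simp [mul_assoc]
      exact e ▸ smul_mem_fixSub hw g
    have hgx : g • x ∈ fixSub (V := V) (cj (g * b)) := by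
      have e : cj (g * b) = (cj b).map (MulAut.conj g).toMonoidHom := by
        rw [hcj, Subgroup.map_map]; congr 1; ext y; simp [mul_assoc]
      exact e ▸ smul_mem_fixSub hx g
    have hgab : cj (g * a) ≠ cj (g * b) := by
      intro e
      apply hab'
      have e' := congrArg (fun C : Subgroup H => C.map (MulAut.conj g⁻¹).toMonoidHom) e
      simp only [hcj, Subgroup.map_map] at e' ⊢
      convert e' using 2 <;> ext y <;> simp [mul_assoc]
    have hgw1 : g • w ≠ 1 := fun e => hw1 (by simpa using congrArg (g⁻¹ • ·) e)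
    have hgx1 : g • x ≠ 1 := fun e => hx1 (by simpa using congrArg (g⁻¹ • ·) e)
    set A := cj a with hA
    set B := cj b with hB
    set A' := cj (g * a) with hA'
    set B' := cj (g * b) with hB'
    set f : Subgroup H → V := fun C => (if C = A' then g • w else 1) *
      (if C = B' then g • x else 1) * (if C = A then w⁻¹ else 1) * (if C = B then x⁻¹ else 1)
      with hf
    have hall := independent N hab ({A', B', A, B} : Finset (Subgroup H))
      (fun C hC => by
        simp only [Finset.mem_insert, Finset.mem_singleton] at hC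
        rcases hC with rfl | rfl | rfl | rfl <;> exact hcjN _)
      (fun C hC D hD v hvC hvD => by
        by_cases hv : v = 1
        · exact Or.inr hv
        left
        simp only [Finset.mem_insert, Finset.mem_singleton] at hC hD
        rcases hC with rfl | rfl | rfl | rfl <;> rcases hD with rfl | rfl | rfl | rfl <;>
          exact (hcjS _ v hv hvC).symm.trans (hcjS _ v hv hvD))
      f
      (fun C _ => by
        refine mul_mem (mul_mem (mul_mem ?_ ?_) ?_) ?_ <;> split_ifs with e
        · exact e ▸ hgw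
        · exact one_mem _
        · exact e ▸ hgx
        · exact one_mem _
        · exact e ▸ inv_mem hw
        · exact one_mem _
        · exact e ▸ inv_mem hx
        · exact one_mem _)
      (by
        simp only [hf, Finset.prod_mul_distrib, Finset.prod_ite_eq', Finset.mem_insert,
          Finset.mem_singleton, true_or, or_true, if_true]
        rw [hgwx, mul_assoc (w * x), ← mul_inv, mul_inv_cancel])
    have fA := hall A (by simp)
    have fB := hall B (by simp)
    simp only [hf, if_true, if_neg hab', if_neg (Ne.symm hab'), mul_one] at fA fB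
    by_cases c1 : A = A'
    · have hAB' : A ≠ B' := c1 ▸ hgab
      rw [if_pos c1, if_neg hAB', mul_one, mul_inv_eq_one] at fA
      refine ⟨fA, ?_⟩
      rwa [fA, mul_right_inj] at hgwx
    · rw [if_neg c1, one_mul] at fA
      by_cases c2 : A = B'
      · rw [if_pos c2, mul_inv_eq_one] at fA
        -- the element swaps the two vectors, so its square fixes `w`
        exfalso
        have hgw' : g • w = x := by rwa [fA, mul_comm w x, mul_left_inj] at hgwx
        have hsq : g ^ 2 • w = w := by rw [pow_two, mul_smul, hgw', fA]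
        have hcop : (orderOf g).Coprime 2 := by
          haveI := Fact.mk hq.prime
          obtain ⟨k, hk⟩ := IsPGroup.iff_orderOf.mp Q.isPGroup' ⟨g, hg⟩
          rw [Subgroup.orderOf_mk] at hk
          rw [hk]
          exact Nat.Coprime.pow_left k ((Nat.coprime_primes hq.prime Nat.prime_two).mpr hodd)
        obtain ⟨m, hm⟩ := exists_pow_eq_self_of_coprime hcop.symm
        have hmem : g ∈ MulAction.stabilizer H w :=
          hm ▸ Subgroup.pow_mem _ (show g ^ 2 ∈ MulAction.stabilizer H w from hsq) m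
        have hwx : w = x := (MulAction.mem_stabilizer_iff.mp hmem).symm.trans hgw'
        exact hab' ((hcjS a w hw1 hw).symm.trans ((congrArg S hwx).trans (hcjS b x hx1 hx)))
      · rw [if_neg c2, one_mul] at fA
        exact absurd (inv_eq_one.mp fA) hw1
  -- all these vectors share their Sylow subgroup
  obtain ⟨Q, hQ, hQu⟩ := hq.fix v₀ hv₀
  have hall1 : ∀ a, cj a ≠ B₀ → ∀ w ∈ fixSub (V := V) (cj a), w ≠ 1 →
      (Q : Subgroup H) ≤ MulAction.stabilizer H w := by
    intro a ha w hw hw1
    obtain ⟨Q', hQ', -⟩ := hq.fix (v₀ * w) (fun e => ha (by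
      have e' : w = v₀⁻¹ := eq_inv_of_mul_eq_one_right e
      have hv0' : w ∈ fixSub (V := V) (cj 1) := by
        rw [e', hcj1]; exact inv_mem hmem
      exact (hcjS a w hw1 hw).symm.trans ((hcjS 1 w hw1 hv0').trans hcj1)))
    obtain ⟨e1, e2⟩ := hpair 1 a (by rw [hcj1]; exact ha.symm) v₀
      (by rw [hcj1]; exact hmem) hv₀ w hw hw1 Q' hQ'
    exact hQu Q' e1 ▸ e2
  set Ω : Set V := {v | v ≠ 1 ∧ ∃ h, v ∈ fixSub (V := V) (cj h)} with hΩ
  refine hq.not_const Ω ⟨v₀, hv₀, 1, by rw [hcj1]; exact hmem⟩ (fun h => h.1 rfl)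
    (fun h v ⟨hv, a, ha⟩ => ⟨fun e => hv (by simpa using congrArg (h⁻¹ • ·) e), h * a, ?_⟩) Q ?_
  · have e : cj (h * a) = (cj a).map (MulAut.conj h).toMonoidHom := by
      rw [hcj, Subgroup.map_map]; congr 1; ext y; simp [mul_assoc]
    exact e ▸ smul_mem_fixSub ha h
  · rintro v ⟨hv, a, ha⟩
    by_cases haB : cj a = B₀
    · obtain ⟨hw, hw1⟩ := hvh h₁
      obtain ⟨Q', hQ', -⟩ := hq.fix (v * h₁ • v₀) (fun e => hne (by
        have e' : v = (h₁ • v₀)⁻¹ := eq_inv_of_mul_eq_one_left e
        have hv0' : v ∈ fixSub (V := V) (cj h₁) := e' ▸ inv_mem hw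
        exact ((hcjS h₁ v hv hv0').symm.trans (hcjS a v hv ha)).trans haB))
      obtain ⟨e1, e2⟩ := hpair a h₁ (haB ▸ hne.symm) v ha hv _ hw hw1 Q' hQ'
      obtain ⟨Q'', -, hu⟩ := hq.fix _ hw1
      rw [(hu Q (hall1 h₁ hne _ hw hw1)).trans (hu Q' e2).symm]
      exact e1
    · exact hall1 a haB v ha hv

/-- A commutative group acting fixed-point-freely is cyclic. -/
theorem isCyclic_of_fpf {A K : Type*} [Group A] [Finite A] [Group K] [Finite K] [Nontrivial K]
    (hab : ∀ a b : A, a * b = b * a) (ψ : A →* MulAut K)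
    (hfpf : ∀ e : A, e ≠ 1 → ∀ k : K, ψ e k = k → k = 1) : IsCyclic A := by
  haveI : Group.IsNilpotent A := by
    letI : CommGroup A := { (inferInstance : Group A) with mul_comm := hab }
    infer_instance
  haveI : IsZGroup A := ⟨fun p hp P => by
    haveI := Fact.mk hp
    rcases H21.cyclic_or_quaternion p P.2 (H21.unique_subgroup_of_fpf P.2 (ψ.comp P.1.subtype)
      fun e he k hk => hfpf e (by simpa using he) k hk) with h | ⟨-, n, ⟨e⟩⟩
    · exact h
    · by_cases hn : n = 0
      · subst hn
        haveI : IsCyclic (QuaternionGroup (2 ^ 0)) := QuaternionGroup.quaternionGroup_one_isCyclic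
        exact isCyclic_of_surjective e.symm.toMonoidHom e.symm.surjective
      · exfalso
        have hc : QuaternionGroup.a (n := 2 ^ n) 1 * QuaternionGroup.xa 0 =
            QuaternionGroup.xa 0 * QuaternionGroup.a 1 := by
          have h := congrArg e (Subtype.ext (hab (e.symm (QuaternionGroup.a 1) : A)
            (e.symm (QuaternionGroup.xa 0) : A)) :
            e.symm (QuaternionGroup.a 1) * e.symm (QuaternionGroup.xa 0) =
              e.symm (QuaternionGroup.xa 0) * e.symm (QuaternionGroup.a 1))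
          simpa using h
        simp only [QuaternionGroup.a_mul_xa, QuaternionGroup.xa_mul_a, QuaternionGroup.xa.injEq,
          zero_sub, zero_add] at hc
        have h2 : ((2 : ℕ) : ZMod (2 * 2 ^ n)) = 0 := by
          push_cast; linear_combination -hc
        rw [ZMod.natCast_eq_zero_iff] at h2
        have h3 := Nat.le_of_dvd two_pos h2
        have : 2 ≤ 2 ^ n := Nat.one_lt_two_pow hn
        omega⟩
  infer_instance

end Cfsg.Agent.H17.Palfy
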