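import Mathlib

/-!
# Elements of order three with small residual on symplectic spaces over two elements

If `x` with `x³ = 1` acts on an elementary abelian 2-group `U` preserving a non-degenerate
alternating form, with fixed points of index at most four, and normalises a `p`-group `P`
(`p ≥ 5`), then it centralises `P`.
-/

set_option autoImplicit false
set_option linter.all false

namespace Cfsg.Agent.H17.Palfy

variable {G U : Type*} [Group G] [CommGroup U] [MulDistribMulAction G U]

/-- The fixed points of one element. -/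
def fixOne (g : G) : Subgroup U where
  carrier := {u | g • u = u}
  one_mem' := smul_one g
  mul_mem' := fun {a b} ha hb => by
    show g • (a * b) = a * b
    rw [smul_mul', ha, hb]
  inv_mem' := fun {a} ha => by
    show g • a⁻¹ = a⁻¹
    rw [smul_inv', ha]

theorem mem_fixOne {g : G} {u : U} : u ∈ fixOne g ↔ g • u = u := Iff.rfl

/-- An element of odd order moves no vector within its coset of fixed vectors. -/
theorem translation_eq_one (h2 : ∀ u : U, u * u = 1) {j : G} (hodd : Odd (orderOf j)) {u s : U}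
    (hu : j • u = u * s) (hs : j • s = s) : s = 1 := by
  have key : ∀ k : ℕ, j ^ k • u = u * s ^ k := by
    intro k
    induction k with
    | zero => simp
    | succ k ih => rw [pow_succ', mul_smul, ih, smul_mul', hu, smul_pow', hs, mul_assoc, pow_succ']
  have h := key (orderOf j)
  rw [pow_orderOf_eq_one, one_smul] at h
  obtain ⟨m, hm⟩ := hodd
  rw [hm, pow_succ, pow_mul, pow_two, h2, one_pow, one_mul] at h
  exact left_eq_mul.mp h

theorem index_le_four_of_cover [Finite U] (F : Subgroup U) (a b : U)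
    (h : ∀ u : U, u ∈ F ∨ a⁻¹ * u ∈ F ∨ b⁻¹ * u ∈ F ∨ (a * b)⁻¹ * u ∈ F) : F.index ≤ 4 := by
  have hs : Function.Surjective fun i : Fin 4 => (QuotientGroup.mk (![1, a, b, a * b] i) : U ⧸ F) := by
    intro c
    obtain ⟨u, rfl⟩ := QuotientGroup.mk_surjective c
    rcases h u with e | e | e | e
    · exact ⟨0, QuotientGroup.eq.mpr (by simpa using e)⟩
    · exact ⟨1, QuotientGroup.eq.mpr (by simpa using e)⟩
    · exact ⟨2, QuotientGroup.eq.mpr (by simpa using e)⟩
    · exact ⟨3, QuotientGroup.eq.mpr (by simpa using e)⟩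
  have := Nat.card_le_card_of_surjective _ hs
  simpa [Subgroup.index_eq_card] using this

variable [Finite G] [Finite U] {W : Type*} [Group W]

/-- A non-degenerate alternating form does not live on a group of order eight. -/
theorem false_of_eight (hW : Nat.card W = 2) (β : U → U → W) (hself : ∀ a, β a a = 1)
    (hl : ∀ a b c, β (a * b) c = β a c * β b c) (hr : ∀ a b c, β a (b * c) = β a b * β a c)
    (h2 : ∀ u : U, u * u = 1) (R : Subgroup U) (hR : Nat.card R = 8)
    (hnd : ∀ a ∈ R, (∀ b ∈ R, β a b = 1) → a = 1) : False := by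
  haveI : Finite W := Nat.finite_of_card_ne_zero (by omega)
  have hWmul : ∀ x y : W, x ≠ 1 → y ≠ 1 → x * y = 1 := by
    intro x y hx hy
    obtain ⟨a, b, hab, huniv⟩ := Nat.card_eq_two_iff.mp hW
    have h1 : ∀ w : W, w = a ∨ w = b := fun w => by
      have : w ∈ ({a, b} : Set W) := huniv.symm ▸ Set.mem_univ w
      simpa using this
    have hxy : x = y := by
      rcases h1 1 with e0 | e0 <;> rcases h1 x with e1 | e1 <;> rcases h1 y with e2 | e2 <;>
        first
        | exact e1.trans e2.symm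
        | exact absurd (e1.trans e0.symm) hx
        | exact absurd (e2.trans e0.symm) hy
    subst hxy
    rcases h1 (x * x) with e | e <;> rcases h1 1 with e0 | e0 <;> rcases h1 x with e1 | e1 <;>
      first
      | exact e.trans e0.symm
      | exact absurd (e1.trans e0.symm) hx
      | exact absurd (mul_eq_left.mp (e.trans e1.symm)) hx
  have hone : ∀ a, β a 1 = 1 := fun a => by
    have h := hr a 1 1
    rw [mul_one] at h
    exact right_eq_mul.mp h
  let K : U → Subgroup U := fun r =>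
    { carrier := {s | s ∈ R ∧ β r s = 1}
      one_mem' := ⟨one_mem _, hone r⟩
      mul_mem' := fun {a b} ha hb => ⟨mul_mem ha.1 hb.1, by rw [hr, ha.2, hb.2, mul_one]⟩
      inv_mem' := fun {a} ha => ⟨inv_mem ha.1, by
        rw [inv_eq_of_mul_eq_one_right (h2 a)]; exact ha.2⟩ }
  have hK : ∀ r ∈ R, r ≠ 1 → ∃ s ∈ R, β r s ≠ 1 := by
    intro r hr' hr1
    by_contra hcon
    push Not at hcon
    exact hr1 (hnd r hr' hcon)
  obtain ⟨r₁, hr₁, hr₁1⟩ := (Subgroup.ne_bot_iff_exists_ne_one.mp (fun e : R = ⊥ => by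
    rw [e, Subgroup.card_bot] at hR; omega) : ∃ a : R, a ≠ 1) |> fun ⟨a, ha⟩ =>
      (⟨a.1, a.2, fun e => ha (Subtype.ext e)⟩ : ∃ a, a ∈ R ∧ a ≠ 1)
  -- an element of the kernel of `r₁` outside `⟨r₁⟩`
  obtain ⟨s₀, hs₀, hs₀1⟩ := hK r₁ hr₁ hr₁1
  obtain ⟨r₂, hr₂, hr₂k, hr₂1, hr₂ne⟩ : ∃ r₂ ∈ R, β r₁ r₂ = 1 ∧ r₂ ≠ 1 ∧ r₂ ≠ r₁ := by
    by_contra hcon
    push Not at hcon
    have hle : ∀ s ∈ R, s = 1 ∨ s = r₁ ∨ s = s₀ ∨ s = s₀ * r₁ := by
      intro s hs
      by_cases hβ : β r₁ s = 1
      · by_cases h1 : s = 1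
        · exact Or.inl h1
        · exact Or.inr (Or.inl (hcon s hs hβ h1))
      · have h' : β r₁ (s₀ * s) = 1 := by rw [hr]; exact hWmul _ _ hs₀1 hβ
        by_cases h1 : s₀ * s = 1
        · exact Or.inr (Or.inr (Or.inl
            ((eq_inv_of_mul_eq_one_right h1).trans (inv_eq_of_mul_eq_one_right (h2 s₀)))))
        · right; right; right
          rw [← hcon _ (mul_mem hs₀ hs) h' h1, ← mul_assoc, h2, one_mul]
    have hidx := index_le_four_of_cover (⊥ : Subgroup R) ⟨r₁, hr₁⟩ ⟨s₀, hs₀⟩ fun s => by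
      simp only [Subgroup.mem_bot, inv_mul_eq_one, Subtype.ext_iff, Subgroup.coe_mul,
        Subgroup.coe_one]
      rcases hle s s.2 with e | e | e | e
      · exact Or.inl e
      · exact Or.inr (Or.inl e.symm)
      · exact Or.inr (Or.inr (Or.inl e.symm))
      · exact Or.inr (Or.inr (Or.inr (by rw [mul_comm]; exact e.symm)))
    rw [Subgroup.index_bot, hR] at hidx
    omega
  have hsym : ∀ a b, β a b = 1 → β b a = 1 := by
    intro a b hab
    have h := hself (a * b)
    rw [hl, hr, hr, hself, hself, one_mul, mul_one, hab, one_mul] at h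
    exact h
  obtain ⟨s, hs, hs1⟩ := hK r₁ hr₁ hr₁1
  obtain ⟨t, ht, ht1⟩ := hK r₂ hr₂ hr₂1
  set c := r₁ * r₂ with hc
  have hc1 : c ≠ 1 := fun e => hr₂ne (mul_left_cancel (e.trans (h2 r₁).symm))
  obtain ⟨u, hu, hu1⟩ := hK c (mul_mem hr₁ hr₂) hc1
  -- the three vectors have a common orthogonal index two subgroup
  have hsub : ∀ w ∈ R, w = 1 ∨ w = r₁ ∨ w = r₂ ∨ w = c → β r₁ w = 1 ∧ β r₂ w = 1 := by
    rintro w - (rfl | rfl | rfl | rfl)
    · exact ⟨hone _, hone _⟩
    · exact ⟨hself _, hsym _ _ hr₂k⟩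
    · exact ⟨hr₂k, hself _⟩
    · exact ⟨by rw [hc, hr, hself, hr₂k, mul_one], by rw [hc, hr, hself, hsym _ _ hr₂k, mul_one]⟩
  have hker : ∀ r ∈ R, ∀ w ∈ R, r ≠ 1 → β r r₁ = 1 → β r r₂ = 1 → β r w = 1 →
      w = 1 ∨ w = r₁ ∨ w = r₂ ∨ w = c := by
    intro r hr' w hw hr1 e1 e2 ew
    by_contra hcon
    push Not at hcon
    obtain ⟨v, hv, hv1⟩ := hK r hr' hr1
    have hlt : (K r).subgroupOf R ≠ ⊤ := fun e => hv1
      ((Subgroup.mem_subgroupOf.mp (e.symm ▸ Subgroup.mem_top (⟨v, hv⟩ : R)) : v ∈ K r)).2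
    have h5 : 5 ≤ Nat.card ((K r).subgroupOf R) := by
      classical
      have hdist : ({(1 : U), r₁, r₂, c, w} : Finset U).card = 5 := by
        have a1 : r₁ ≠ c := fun e => hr₂1 (left_eq_mul.mp e)
        have a2 : r₂ ≠ c := fun e => hr₁1 (right_eq_mul.mp e)
        simp [Finset.card_insert_of_notMem, hr₁1.symm, hr₂1.symm, hr₂ne.symm, hc1.symm, a1, a2,
          hcon.1.symm, hcon.2.1.symm, hcon.2.2.1.symm, hcon.2.2.2.symm]
      have hsub' : (({(1 : U), r₁, r₂, c, w} : Finset U) : Set U) ⊆ (K r : Set U) := by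
        intro x hx
        simp only [Finset.coe_insert, Finset.coe_singleton, Set.mem_insert_iff,
          Set.mem_singleton_iff] at hx
        rcases hx with rfl | rfl | rfl | rfl | rfl
        · exact one_mem _
        · exact ⟨hr₁, e1⟩
        · exact ⟨hr₂, e2⟩
        · exact ⟨mul_mem hr₁ hr₂, by rw [hc, hr, e1, e2, mul_one]⟩
        · exact ⟨hw, ew⟩
      have hle := Set.ncard_le_ncard hsub' (Set.toFinite _)
      rw [Set.ncard_coe_finset, hdist] at hle
      refine hle.trans (le_of_eq ?_)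
      rw [← Nat.card_coe_set_eq]
      exact (Nat.card_congr (Subgroup.subgroupOfEquivOfLe (fun x hx => hx.1 : K r ≤ R)).toEquiv).symm
    have hmul := ((K r).subgroupOf R).card_mul_index
    rw [hR] at hmul
    have hi : 2 ≤ ((K r).subgroupOf R).index := by
      have h0 : ((K r).subgroupOf R).index ≠ 0 := Subgroup.index_ne_zero_of_finite
      have h1 : ((K r).subgroupOf R).index ≠ 1 := fun e => hlt (Subgroup.index_eq_one.mp e)
      omega
    nlinarith
  have hn1 : ∀ w ∈ R, ¬ (w = 1 ∨ w = r₁ ∨ w = r₂ ∨ w = c) → β r₁ w ≠ 1 ∧ β r₂ w ≠ 1 :=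
    fun w hw hn => ⟨fun e => hn (hker r₁ hr₁ w hw hr₁1 (hself _) hr₂k e),
      fun e => hn (hker r₂ hr₂ w hw hr₂1 (hsym _ _ hr₂k) (hself _) e)⟩
  by_cases hmem : u = 1 ∨ u = r₁ ∨ u = r₂ ∨ u = c
  · exact hu1 (by rw [hc, hl, (hsub u hu hmem).1, (hsub u hu hmem).2, mul_one])
  · exact hu1 (by rw [hc, hl]; exact hWmul _ _ (hn1 u hu hmem).1 (hn1 u hu hmem).2)

theorem zmod_five_cube : ∀ a : ZMod 5, a * a * a = 1 → a = 1 := by decide

/-- The element centralises `P`. -/
theorem commute_of_small [FaithfulSMul G U] (h2 : ∀ u : U, u * u = 1)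
    (hW : Nat.card W = 2) (β : U → U → W) (hself : ∀ a, β a a = 1)
    (hl : ∀ a b c, β (a * b) c = β a c * β b c) (hr : ∀ a b c, β a (b * c) = β a b * β a c)
    (hinv : ∀ (g : G) (a b : U), β (g • a) (g • b) = β a b)
    (hnd : ∀ a, (∀ b, β a b = 1) → a = 1)
    {p : ℕ} [hp : Fact p.Prime] (hp5 : 5 ≤ p) (P : Subgroup G) (hP : IsPGroup p P)
    {x : G} (hxP : x ∈ Subgroup.normalizer (P : Set G)) (hx3 : x ^ 3 = 1)
    (hfix : (fixOne (U := U) x).index ≤ 4) : ∀ n ∈ P, x * n = n * x := by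
  classical
  have hpodd : Odd p := hp.out.odd_of_ne_two (by omega)
  have hodd : ∀ j ∈ P, Odd (orderOf j) := by
    intro j hj
    obtain ⟨k, hk⟩ := IsPGroup.iff_orderOf.mp hP ⟨j, hj⟩
    rw [Subgroup.orderOf_mk] at hk
    rw [hk]
    exact hpodd.pow
  have h3P : ∀ j ∈ P, j ^ 3 = 1 → j = 1 := by
    intro j hj e
    obtain ⟨k, hk⟩ := IsPGroup.iff_orderOf.mp hP ⟨j, hj⟩
    rw [Subgroup.orderOf_mk] at hk
    have h := orderOf_dvd_of_pow_eq_one e
    rw [hk] at h
    have : p ^ k = 1 := by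
      rcases (Nat.dvd_prime Nat.prime_three).mp h with h | h
      · exact h
      · exfalso
        cases k with
        | zero => simp at h
        | succ k =>
          have : p ≤ p ^ (k + 1) := Nat.le_self_pow (by omega) p
          omega
    exact orderOf_eq_one_iff.mp (hk.trans this)
  suffices hcomm : ∀ n ∈ P, x * (x * n * x⁻¹ * n⁻¹) = x * n * x⁻¹ * n⁻¹ * x by
    intro n hn
    set y := x * n * x⁻¹ * n⁻¹ with hy
    have c : Commute x y := hcomm n hn
    have e1 : x * n * x⁻¹ = y * n := by rw [hy]; group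
    have e2 : ∀ k : ℕ, x ^ k * n * (x ^ k)⁻¹ = y ^ k * n := by
      intro k
      induction k with
      | zero => simp
      | succ k ih =>
        calc x ^ (k + 1) * n * (x ^ (k + 1))⁻¹ = x * (x ^ k * n * (x ^ k)⁻¹) * x⁻¹ := by
              rw [pow_succ']; group
          _ = x * y ^ k * x⁻¹ * (x * n * x⁻¹) := by rw [ih]; group
          _ = y ^ (k + 1) * n := by
              rw [(c.pow_right k).eq, mul_inv_cancel_right, e1, ← mul_assoc, ← pow_succ]
    have h3 := e2 3
    rw [hx3, one_mul, inv_one, mul_one] at h3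
    have hy1 : y = 1 := h3P y (mul_mem ((Subgroup.mem_normalizer_iff.mp hxP n).mp hn) (inv_mem hn))
      (right_eq_mul.mp h3)
    rw [hy1, one_mul] at e1
    exact mul_inv_eq_iff_eq_mul.mp e1
  intro n hn
  set y := x * n * x⁻¹ * n⁻¹ with hy
  have hyP : y ∈ P := mul_mem ((Subgroup.mem_normalizer_iff.mp hxP n).mp hn) (inv_mem hn)
  by_cases hy1 : y = 1
  · rw [hy1, mul_one, one_mul]
  -- the vectors fixed by `x` and by its conjugate
  set S₀ : Subgroup U := fixOne x ⊓ fixOne (n * x * n⁻¹) with hS₀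
  have hxS : ∀ s ∈ S₀, x • s = s := fun s hs => (Subgroup.mem_inf.mp hs).1
  have hconjidx : (fixOne (U := U) (n * x * n⁻¹)).index = (fixOne (U := U) x).index := by
    have e : fixOne (U := U) (n * x * n⁻¹) =
        (fixOne (U := U) x).comap (MulDistribMulAction.toMonoidHom U n⁻¹) := by
      ext u
      show (n * x * n⁻¹) • u = u ↔ x • (n⁻¹ • u) = n⁻¹ • u
      rw [mul_smul, mul_smul, eq_inv_smul_iff]
    rw [e, Subgroup.index_comap_of_surjective _ fun u => ⟨n • u, inv_smul_smul n u⟩]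
  have hS16 : S₀.index ≤ 16 := calc
    S₀.index ≤ (fixOne (U := U) x).index * (fixOne (U := U) (n * x * n⁻¹)).index :=
      Subgroup.index_inf_le
    _ ≤ 4 * 4 := by rw [hconjidx]; exact Nat.mul_le_mul hfix hfix
  set J : Subgroup G := P ⊓ ⨅ s : S₀, MulAction.stabilizer G (s : U) with hJ
  have hJmem : ∀ j, j ∈ J ↔ j ∈ P ∧ ∀ s ∈ S₀, j • s = s := by
    intro j
    simp [hJ, Subgroup.mem_iInf]
  have hyJ : y ∈ J := (hJmem y).mpr ⟨hyP, fun s hs => by
    have h1 := (Subgroup.mem_inf.mp hs).2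
    have h2' : (n * x * n⁻¹)⁻¹ • s = s := by rw [inv_smul_eq_iff, mem_fixOne.mp h1]
    rw [show y = x * (n * x * n⁻¹)⁻¹ by rw [hy]; group, mul_smul, h2', hxS s hs]⟩
  have htrans : ∀ j ∈ J, ∀ u : U, ∀ s ∈ S₀, j • u = u * s → s = 1 := fun j hj u s hs e =>
    translation_eq_one h2 (hodd j ((hJmem j).mp hj).1) e (((hJmem j).mp hj).2 s hs)
  -- `J` has order `p`
  have hJp : Nat.card J = p := by
    obtain ⟨e, he⟩ : ∃ e : U, y • e ≠ e := by
      by_contra hcon
      push Not at hcon
      exact hy1 (eq_of_smul_eq_smul (α := U) fun u => by rw [hcon u, one_smul])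
    have heS : e ∉ S₀ := fun h => he (((hJmem y).mp hyJ).2 e h)
    have hinj : ∀ j ∈ J, ∀ j' ∈ J, (j • e)⁻¹ * j' • e ∈ S₀ → j • e = j' • e := by
      intro j hj j' hj' hmem
      have hk : j⁻¹ * j' ∈ J := mul_mem (inv_mem hj) hj'
      have e2 : j⁻¹ • ((j • e)⁻¹ * j' • e) = (j • e)⁻¹ * j' • e :=
        ((hJmem _).mp (inv_mem hj)).2 _ hmem
      rw [smul_mul', smul_inv', inv_smul_smul, smul_smul] at e2
      have := htrans _ hk e _ hmem (by rw [← e2, mul_inv_cancel_left])
      exact (inv_mul_eq_one.mp this)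
    have horbit : (MulAction.orbit J e).ncard < S₀.index := by
      rw [Subgroup.index_eq_card, ← Set.ncard_univ]
      have hnot : (1 : U ⧸ S₀) ∉ QuotientGroup.mk '' (MulAction.orbit J e) := by
        rintro ⟨_, ⟨j, rfl⟩, hj⟩
        refine heS ?_
        have hmem : (j : G) • e ∈ S₀ := (QuotientGroup.eq_one_iff _).mp hj
        have := ((hJmem _).mp (inv_mem j.2)).2 _ hmem
        rw [inv_smul_smul] at this
        rwa [← this] at hmem
      rw [← Set.ncard_image_of_injOn (f := (QuotientGroup.mk : U → U ⧸ S₀))]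
      · exact Set.ncard_lt_ncard (Set.ssubset_univ_iff.mpr fun e => hnot (e ▸ Set.mem_univ _))
          (Set.toFinite _)
      · rintro _ ⟨j, rfl⟩ _ ⟨j', rfl⟩ h
        exact hinj _ j.2 _ j'.2 (QuotientGroup.eq.mp h)
    set Je := MulAction.stabilizer J e with hJe
    have hidx : Je.index = p := by
      obtain ⟨k, hk⟩ := (hP.to_le (inf_le_left : J ≤ P)).index Je
      have h1 : (MulAction.orbit J e).ncard = Je.index := by
        rw [← Nat.card_coe_set_eq, Subgroup.index_eq_card]
        exact Nat.card_congr (MulAction.orbitEquivQuotientStabilizer J e)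
      have hk0 : k ≠ 0 := by
        rintro rfl
        rw [pow_zero, Subgroup.index_eq_one] at hk
        exact he (show (⟨y, hyJ⟩ : J) ∈ Je from hk ▸ Subgroup.mem_top _)
      have hk1 : k < 2 := by
        by_contra hcon
        have : p ^ 2 ≤ p ^ k := Nat.pow_le_pow_right hp.out.pos (by omega)
        have : 25 ≤ p ^ 2 := by nlinarith
        omega
      rw [hk, show k = 1 by omega, pow_one]
    suffices hJe1 : Je = ⊥ by
      have h := Je.card_mul_index
      rw [hJe1, Subgroup.card_bot, one_mul] at h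
      rw [← h, ← hidx, hJe1]
    haveI : Je.Normal := Subgroup.normal_of_index_eq_minFac_card (by
      obtain ⟨k, hk⟩ := IsPGroup.iff_card.mp (hP.to_le (inf_le_left : J ≤ P))
      have hk0 : k ≠ 0 := by
        rintro rfl
        have h := Je.card_mul_index
        rw [hidx, hk, pow_zero] at h
        exact hp.out.ne_one (Nat.eq_one_of_mul_eq_one_left h)
      rw [hidx, hk, Nat.pow_minFac hk0, hp.out.minFac_eq])
    set F' : Subgroup U := ⨅ k : Je, fixOne ((k : J) : G) with hF'
    have hSF : S₀ ≤ F' := by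
      refine le_iInf fun k s hs => ?_
      exact ((hJmem _).mp (k : J).2).2 s hs
    have heF : ∀ j : J, (j : G) • e ∈ F' := by
      intro j
      refine Subgroup.mem_iInf.mpr fun k => ?_
      have hk' : j⁻¹ * k * j ∈ Je := by
        simpa using (inferInstance : Je.Normal).conj_mem _ k.2 j⁻¹
      have hk'' : ((j⁻¹ * k * j : J) : G) • e = e := hk'
      show ((k : J) : G) • ((j : G) • e) = (j : G) • e
      calc ((k : J) : G) • ((j : G) • e) = (j : G) • (((j⁻¹ * k * j : J) : G) • e) := by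
            rw [smul_smul, smul_smul]; congr 1; simp [mul_assoc]
        _ = (j : G) • e := by rw [hk'']
    have hrel : p + 1 ≤ S₀.relIndex F' := by
      rw [Subgroup.relIndex, Subgroup.index_eq_card, ← Set.ncard_univ]
      set π : F' → ↥F' ⧸ S₀.subgroupOf F' := QuotientGroup.mk
      have hmk : Set.InjOn (fun u : F' => π u) {u | ∃ j : J, (u : U) = (j : G) • e} := by
        rintro u ⟨j, hj⟩ u' ⟨j', hj'⟩ h
        have := Subgroup.mem_subgroupOf.mp (QuotientGroup.eq.mp h)
        refine Subtype.ext ?_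
        rw [Subgroup.coe_mul, Subgroup.coe_inv, hj, hj'] at this
        rw [hj, hj']
        exact hinj _ j.2 _ j'.2 this
      have hnot : (1 : ↥F' ⧸ S₀.subgroupOf F') ∉ π '' {u | ∃ j : J, (u : U) = (j : G) • e} := by
        rintro ⟨u, ⟨j, hj⟩, hu⟩
        have hm : (u : U) ∈ S₀ := Subgroup.mem_subgroupOf.mp ((QuotientGroup.eq_one_iff _).mp hu)
        rw [hj] at hm
        have := ((hJmem _).mp (inv_mem j.2)).2 _ hm
        rw [inv_smul_smul] at this
        exact heS (this ▸ hm)
      have hlt := Set.ncard_lt_ncard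
        (show π '' {u | ∃ j : J, (u : U) = (j : G) • e} ⊂ Set.univ from
          Set.ssubset_univ_iff.mpr fun h => hnot (h ▸ Set.mem_univ _))
        (Set.toFinite _)
      rw [Set.ncard_image_of_injOn hmk] at hlt
      refine le_trans ?_ hlt
      refine Nat.succ_le_succ (le_of_eq ?_)
      rw [← hidx, Subgroup.index_eq_card,
        ← Nat.card_congr (MulAction.orbitEquivQuotientStabilizer J e), Nat.card_coe_set_eq]
      refine (Set.ncard_congr (fun (u : F') _ => (u : U)) ?_ ?_ ?_).symm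
      · rintro u ⟨j, hj⟩; exact ⟨j, hj.symm⟩
      · intro a b _ _ h; exact Subtype.ext h
      · rintro _ ⟨j, rfl⟩; exact ⟨⟨_, heF j⟩, ⟨j, rfl⟩, rfl⟩
    have hF2 : F'.index ≤ 2 := by
      have h := Subgroup.relIndex_mul_index hSF
      by_contra hcon
      have : 6 * 3 ≤ S₀.relIndex F' * F'.index := Nat.mul_le_mul (by omega) (by omega)
      omega
    refine (Subgroup.eq_bot_iff_forall _).mpr fun k hk => Subtype.ext ?_
    refine eq_of_smul_eq_smul (α := U) fun u => ?_
    rw [Subgroup.coe_one, one_smul]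
    have hkF : ∀ f ∈ F', (k : G) • f = f := fun f hf => Subgroup.mem_iInf.mp hf ⟨k, hk⟩
    by_cases hu : u ∈ F'
    · exact hkF u hu
    have hku : (k : G) • u ∉ F' := fun h => hu (by
      have := hkF _ h
      rw [smul_left_cancel_iff] at this
      rwa [← this])
    have hmem : u⁻¹ * (k : G) • u ∈ F' := by
      have hi : F'.index = 2 := by
        have h0 : F'.index ≠ 0 := Subgroup.index_ne_zero_of_finite
        have h1 : F'.index ≠ 1 := fun e => hu (Subgroup.index_eq_one.mp e ▸ Subgroup.mem_top u)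
        omega
      rw [Subgroup.mul_mem_iff_of_index_two hi, inv_mem_iff]
      exact iff_of_false hu hku
    have hs := translation_eq_one h2 (hodd _ ((hJmem _).mp (k : J).2).1)
      (mul_inv_cancel_left u ((k : G) • u)).symm (hkF _ hmem)
    exact (inv_mul_eq_one.mp hs).symm
  -- the action of `x` on `J`
  have hxy : x * y * x⁻¹ ∈ J := (hJmem _).mpr
    ⟨(Subgroup.mem_normalizer_iff.mp hxP y).mp hyP, fun s hs => by
      have h2' : x⁻¹ • s = s := by rw [inv_smul_eq_iff, hxS s hs]
      rw [mul_smul, mul_smul, h2', ((hJmem y).mp hyJ).2 s hs, hxS s hs]⟩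
  have hyord : orderOf y = p := by
    have h := orderOf_dvd_natCard (⟨y, hyJ⟩ : J)
    rw [Subgroup.orderOf_mk, hJp] at h
    exact ((Nat.dvd_prime hp.out).mp h).resolve_left fun e => hy1 (orderOf_eq_one_iff.mp e)
  have hJz : Subgroup.zpowers y = J := Subgroup.eq_of_le_of_card_ge (Subgroup.zpowers_le.mpr hyJ)
    (by rw [Nat.card_zpowers, hyord, hJp])
  obtain ⟨i, hi⟩ : ∃ i : ℕ, y ^ i = x * y * x⁻¹ :=
    Submonoid.mem_powers_iff _ _ |>.mp
      ((isOfFinOrder_of_finite y).mem_powers_iff_mem_zpowers.mpr (hJz.symm ▸ hxy))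
  have hi3 : y ^ (i * i * i) = y := by
    have h1 : ∀ m : ℕ, x * y ^ m * x⁻¹ = y ^ (i * m) := fun m => by
      rw [pow_mul, hi, conj_pow]
    calc y ^ (i * i * i) = x * y ^ (i * i) * x⁻¹ := by rw [h1, ← mul_assoc]
      _ = x * (x * y ^ i * x⁻¹) * x⁻¹ := by rw [h1 i]
      _ = x ^ 3 * y * (x ^ 3)⁻¹ := by rw [hi]; simp only [pow_succ, pow_zero, one_mul, mul_inv_rev, mul_assoc]
      _ = y := by rw [hx3]; simp
  have hmod : ((i * i * i : ℕ) : ZMod p) = ((1 : ℕ) : ZMod p) := by
    rw [ZMod.natCast_eq_natCast_iff]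
    have := (pow_inj_mod (x := y) (n := i * i * i) (m := 1)).mp (by rw [pow_one]; exact hi3)
    rwa [hyord] at this
  have hdone : (i : ZMod p) = 1 → x * y = y * x := by
    intro hi1
    have h : i ≡ 1 [MOD orderOf y] := by
      rw [hyord, ← ZMod.natCast_eq_natCast_iff, Nat.cast_one]; exact hi1
    have := (pow_inj_mod (x := y)).mpr h
    rw [pow_one, hi] at this
    exact mul_inv_eq_iff_eq_mul.mp this
  -- the fixed points of `y`
  set F : Subgroup U := fixOne y with hF
  have hF16 : F.index ≤ 16 := le_trans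
    (Nat.le_of_dvd (Nat.pos_of_ne_zero Subgroup.index_ne_zero_of_finite)
      (Subgroup.index_dvd_of_le (fun s hs => ((hJmem y).mp hyJ).2 s hs : S₀ ≤ F))) hS16
  have hU2 : IsPGroup 2 U := fun u => ⟨1, by rw [pow_one, pow_two, h2]⟩
  obtain ⟨d, hd⟩ := hU2.index F
  have hd4 : d ≤ 4 := by
    by_contra hcon
    have : 2 ^ 5 ≤ 2 ^ d := Nat.pow_le_pow_right two_pos (by omega)
    omega
  have hzp : IsPGroup p (Subgroup.zpowers y) := IsPGroup.of_card (by
    rw [Nat.card_zpowers, hyord, pow_one])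
  have hcount := hzp.card_modEq_card_fixedPoints U
  have hfixpts : Nat.card (MulAction.fixedPoints (Subgroup.zpowers y) U) = Nat.card F := by
    refine Nat.card_congr (Equiv.subtypeEquivRight fun u => ?_)
    rw [MulAction.mem_fixedPoints]
    refine ⟨fun h => h ⟨y, Subgroup.mem_zpowers y⟩, fun h g => ?_⟩
    have : (g : G) ∈ MulAction.stabilizer G u := Subgroup.zpowers_le.mpr (show y ∈ _ from h) g.2
    exact this
  rw [hfixpts, ← F.card_mul_index, hd] at hcount
  have hcop : Nat.gcd p (Nat.card F) = 1 := by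
    obtain ⟨k, hk⟩ := IsPGroup.iff_card.mp (hU2.to_subgroup F)
    rw [hk]
    exact Nat.Coprime.pow_right k ((Nat.coprime_primes hp.out Nat.prime_two).mpr (by omega))
  nth_rw 2 [← mul_one (Nat.card F)] at hcount
  have hmodd : 2 ^ d ≡ 1 [MOD p] := Nat.ModEq.cancel_left_of_coprime hcop hcount
  have hdvd : p ∣ 2 ^ d - 1 := (Nat.modEq_iff_dvd' Nat.one_le_two_pow).mp hmodd.symm
  have hd0 : d ≠ 0 := by
    rintro rfl
    rw [pow_zero, Subgroup.index_eq_one] at hd
    exact hy1 (eq_of_smul_eq_smul (α := U) fun u => by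
      rw [one_smul]; exact (show u ∈ F from hd ▸ Subgroup.mem_top u))
  have hp57 : p = 5 ∨ (p = 7 ∧ d = 3) := by
    have hle := Nat.le_of_dvd (by
      have : 2 ≤ 2 ^ d := Nat.one_lt_two_pow hd0
      omega) hdvd
    rcases (by omega : d = 1 ∨ d = 2 ∨ d = 3 ∨ d = 4) with rfl | rfl | rfl | rfl
    · norm_num at hle; omega
    · norm_num at hle; omega
    · have : p ∣ 7 := by simpa using hdvd
      exact Or.inr ⟨(Nat.prime_dvd_prime_iff_eq hp.out (by norm_num)).mp this, rfl⟩
    · have : p ∣ 3 * 5 := by simpa using hdvd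
      rcases hp.out.dvd_mul.mp this with h | h
      · have := Nat.le_of_dvd (by norm_num) h; omega
      · exact Or.inl ((Nat.prime_dvd_prime_iff_eq hp.out (by norm_num)).mp h)
  rcases hp57 with rfl | ⟨rfl, rfl⟩
  · refine hdone ?_
    push_cast at hmod
    exact zmod_five_cube _ hmod
  -- order seven: the residual would be a non-degenerate space of order eight
  exfalso
  let f : U →* U :=
    { toFun := fun u => y • u * u⁻¹
      map_one' := by rw [smul_one, inv_one, one_mul]
      map_mul' := fun a b => by rw [smul_mul', mul_inv, mul_mul_mul_comm] }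
  have hker : f.ker = F := by
    ext u
    rw [MonoidHom.mem_ker]
    show y • u * u⁻¹ = 1 ↔ y • u = u
    exact mul_inv_eq_one
  have hR8 : Nat.card f.range = 8 := by
    rw [← Subgroup.index_ker, hker, hd]; rfl
  have hdisj : f.range ⊓ F = ⊥ := by
    refine (Subgroup.eq_bot_iff_forall _).mpr fun w hw => ?_
    obtain ⟨⟨u, rfl⟩, hwF⟩ := Subgroup.mem_inf.mp hw
    exact translation_eq_one h2 (hodd y hyP)
      (show y • u = u * f u by
        show y • u = u * (y • u * u⁻¹)
        rw [mul_comm (y • u), mul_inv_cancel_left]) hwF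
  have hsup : f.range ⊔ F = ⊤ := by
    refine Subgroup.eq_top_of_card_eq _ ?_
    have hcard := Subgroup.card_mul_index F
    have h1 : F.relIndex f.range = Nat.card f.range := by
      rw [← Subgroup.inf_relIndex_right, inf_comm, hdisj, Subgroup.relIndex_bot_left]
    rw [← Subgroup.relIndex_sup_right] at h1
    have h2' := Subgroup.card_mul_index (F.subgroupOf (f.range ⊔ F))
    rw [Nat.card_congr (Subgroup.subgroupOfEquivOfLe (le_sup_right : F ≤ f.range ⊔ F)).toEquiv,
      ← Subgroup.relIndex, h1, hR8] at h2'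
    rw [← h2', ← hcard, hd]; rfl
  have hone' : ∀ b, β 1 b = 1 := fun b => by
    have h := hl 1 1 b
    rw [mul_one] at h
    exact right_eq_mul.mp h
  have horth : ∀ a ∈ f.range, ∀ b ∈ F, β a b = 1 := by
    rintro _ ⟨u, rfl⟩ b hb
    show β (y • u * u⁻¹) b = 1
    have e1 : β (y • u) b = β u b := by
      have := hinv y u b
      rwa [hb] at this
    rw [hl, e1, inv_eq_of_mul_eq_one_right (h2 u), ← hl, h2, hone']
  refine false_of_eight hW β hself hl hr h2 f.range hR8 fun a ha hall => hnd a fun b => ?_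
  obtain ⟨b1, hb1, b2, hb2, rfl⟩ := Subgroup.mem_sup.mp (hsup ▸ Subgroup.mem_top b : b ∈ f.range ⊔ F)
  rw [hr, hall b1 hb1, horth a ha b2 hb2, mul_one]

end Cfsg.Agent.H17.Palfy
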